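import Cfsg.Agent.Lib.GLn.Pronormal
import Cfsg.Agent.Lib.FG.Basic

/-!
Pronormality of subgroups of odd index in direct products, and a consequence of Burnside's
transfer theorem.
-/

set_option autoImplicit false

namespace Cfsg.Agent.Pron

open Subgroup

variable {G : Type*} [Group G]

theorem odd_card_sylow [Finite G] {c : G} (hc : c ∈ center G) (P : Sylow 2 G)
    (hcP : c ∈ (P : Subgroup G)) (h : ∀ n ∈ normalizer ((P : Subgroup G) : Set G),
      ∀ s ∈ (P : Subgroup G), n * s = s * n ∨ n * s = s * n * c)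
    {r : ℕ} [hr : Fact r.Prime] (h2 : r ≠ 2) : ¬ 2 ∣ Nat.card (Sylow r G) := by
  let Z := zpowers c
  haveI : Z.Normal := ⟨fun x hx g => by
    rwa [mem_center_iff.1 (zpowers_le.2 hc hx) g, mul_inv_cancel_right]⟩
  let φ := QuotientGroup.mk' Z
  let P' := P.mapSurjective (QuotientGroup.mk'_surjective Z)
  have hP : ∀ y, φ y ∈ (P' : Subgroup (G ⧸ Z)) ↔ y ∈ (P : Subgroup G) := fun y =>
    ⟨fun ⟨z, hz, e⟩ => by
      simpa using mul_mem hz (zpowers_le.2 hcP (QuotientGroup.eq.1 e)), fun h => ⟨y, h, rfl⟩⟩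
  have hPN : normalizer ((P' : Subgroup (G ⧸ Z)) : Set (G ⧸ Z)) ≤
      centralizer ((P' : Subgroup (G ⧸ Z)) : Set (G ⧸ Z)) := by
    intro y hy
    obtain ⟨y, rfl⟩ := QuotientGroup.mk'_surjective Z y
    rintro _ ⟨s, hs, rfl⟩
    rw [← map_mul, ← map_mul]
    rcases h y (mem_normalizer_fintype fun s hs => by
      have := (mem_normalizer_iff.1 hy (φ s)).1 ((hP _).2 hs)
      rw [← map_inv, ← map_mul, ← map_mul] at this
      exact (hP _).1 this) s hs with e | e <;> rw [e]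
    exact QuotientGroup.eq.2 (by rw [inv_mul_cancel_left]; exact mem_zpowers c)
  let K := (MonoidHom.transferSylow P' hPN).ker
  have hK : ¬ 2 ∣ Nat.card K := MonoidHom.not_dvd_card_ker_transferSylow P' hPN
  obtain ⟨R⟩ : Nonempty (Sylow r G) := inferInstance
  have hR : (R : Subgroup G) ≤ K.comap φ := fun x hx => by
    obtain ⟨k, hk⟩ := R.isPGroup' ⟨x, hx⟩
    obtain ⟨j, hj⟩ := P'.isPGroup' (MonoidHom.transferSylow P' hPN (φ x))
    refine orderOf_eq_one_iff.1 (Nat.eq_one_of_dvd_coprimes (Nat.Coprime.pow k j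
      ((Nat.coprime_primes hr.out Nat.prime_two).2 h2)) (orderOf_dvd_of_pow_eq_one ?_)
      (orderOf_dvd_of_pow_eq_one hj))
    rw [← map_pow, ← map_pow, show x ^ r ^ k = 1 from congrArg Subtype.val hk, map_one, map_one]
  have h1 := FG.card_sup_mul_card_inf (normalizer ((R : Subgroup G) : Set G)) (K.comap φ)
  rw [show normalizer ((R : Subgroup G) : Set G) ⊔ _ = ⊤ from Sylow.normalizer_sup_eq_top' R hR, card_top,
    ← (normalizer ((R : Subgroup G) : Set G)).card_mul_index, mul_assoc,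
    Nat.mul_right_inj Nat.card_pos.ne',
    ← show _ = (normalizer ((R : Subgroup G) : Set G)).index from R.card_eq_index_normalizer] at h1
  obtain ⟨m, hm⟩ := card_dvd_of_le (show Z ≤ normalizer ((R : Subgroup G) : Set G) ⊓ K.comap φ from
    le_inf ((zpowers_le.2 hc).trans (center_le_normalizer _)) fun x hx => by
      rw [mem_comap, show φ x = 1 from (QuotientGroup.eq_one_iff x).2 hx]; exact one_mem _)
  have h3 : Nat.card (K.comap φ) = Nat.card Z * Nat.card K := by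
    have a1 := (K.comap φ).card_mul_index
    rw [index_comap_of_surjective _ (QuotientGroup.mk'_surjective Z),
      card_eq_card_quotient_mul_card_subgroup Z, ← K.card_mul_index] at a1
    exact Nat.eq_of_mul_eq_mul_right (Nat.pos_of_ne_zero K.index_ne_zero_of_finite)
      (a1.trans (by ring))
  intro h4
  refine hK (h4.trans (Dvd.intro m (Nat.eq_of_mul_eq_mul_left (Nat.card_pos (α := Z)) ?_)))
  rw [← h3, ← h1, hm]; ring

theorem exists_sylow_fixed [Finite G] {r : ℕ} [Fact r.Prime] (h : ¬ 2 ∣ Nat.card (Sylow r G))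
    (φ : MulAut G) {k : ℕ} (hφ : φ ^ 2 ^ k = 1) :
    ∃ R : Sylow r G, ∀ x ∈ (R : Subgroup G), φ x ∈ (R : Subgroup G) := by
  haveI := Fintype.ofFinite (Sylow r G)
  obtain ⟨R, hR⟩ := Equiv.Perm.exists_fixed_point_of_prime (p := 2) (n := k)
    (σ := MulAction.toPermHom (MulAut G) (Sylow r G) φ) (by rwa [← Nat.card_eq_fintype_card])
    (by rw [← map_pow, hφ, map_one])
  exact ⟨R, fun x hx => hR ▸ ⟨x, hx, rfl⟩⟩

theorem isPGroup_dihedral {a b : G} {k : ℕ} (ha : a * a = 1) (hb : b * b = 1)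
    (h : (a * b) ^ 2 ^ k = 1) : ∃ P : Subgroup G, IsPGroup 2 P ∧ a ∈ P ∧ b ∈ P ∧
      ∀ L : Subgroup G, a ∈ L → b ∈ L → P ≤ L := by
  have h1 : a * (a * b) * a⁻¹ = (a * b)⁻¹ := by
    rw [← mul_assoc, ha, one_mul, mul_inv_rev, inv_eq_of_mul_eq_one_right hb]
  refine ⟨zpowers a ⊔ zpowers (a * b), IsPGroup.to_sup_of_normal_right'
    (Alt.isPGroup_zpowers_of_pow (k := 1) (by rw [pow_one, sq, ha]))
    (Alt.isPGroup_zpowers_of_pow h) (zpowers_le.2 (mem_normalizer_iff.2 fun x => ?_)),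
    mem_sup_left (mem_zpowers a), ?_, fun L h1 h2 =>
      sup_le (zpowers_le.2 h1) (zpowers_le.2 (mul_mem h1 h2))⟩
  · have h2 : ∀ x ∈ zpowers (a * b), a * x * a⁻¹ = x⁻¹ := by
      rintro _ ⟨n, rfl⟩
      rw [← conj_zpow, h1, inv_zpow]
    refine ⟨fun hx => h2 x hx ▸ inv_mem hx, fun hx => ?_⟩
    have := h2 _ hx
    rw [← mul_assoc, ← mul_assoc, ha, one_mul, mul_assoc, ← mul_inv_rev, ha, inv_one, mul_one] at this
    exact this ▸ inv_mem hx
  · simpa [← mul_assoc, ha] using mul_mem (mem_sup_left (mem_zpowers a))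
      (mem_sup_right (S := zpowers a) (mem_zpowers (a * b)))

/-- the condition on a Sylow subgroup which passes to direct products -/
def PN (S : Subgroup G) : Prop :=
  (∀ L : Subgroup G, S ≤ L → ∀ g ∈ normalizer (S : Set G),
    g ∈ L ⊔ L.map (MulAut.conj g).toMonoidHom ∨ ∀ l ∈ L, g * l * g⁻¹ ∈ L) ∧
  ∀ g ∈ normalizer (S : Set G), ∀ h ∈ normalizer (S : Set G), g * h * g⁻¹ * h⁻¹ ∈ S

theorem PN.comap {G' : Type*} [Group G'] {S : Subgroup G'} (h : PN S) (e : G ≃* G') :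
    PN (S.comap e.toMonoidHom) := by
  have h1 : ∀ g ∈ normalizer (S.comap e.toMonoidHom : Set G), e g ∈ normalizer (S : Set G') :=
    fun g hg => mem_normalizer_iff.2 fun x => by
      obtain ⟨x, rfl⟩ := e.surjective x
      simpa using mem_normalizer_iff.1 hg x
  refine ⟨fun L hL g hg => (h.1 (L.comap e.symm.toMonoidHom) (fun x hx => hL (by simpa using hx))
    _ (h1 g hg)).imp (fun h2 => ?_) fun h2 l hl => by simpa using h2 (e l) (by simpa using hl),
    fun g hg k hk => by simpa using h.2 _ (h1 g hg) _ (h1 k hk)⟩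
  have := (sup_le (a := L.comap e.symm.toMonoidHom) (c := (L ⊔ L.map (MulAut.conj g).toMonoidHom).comap
    e.symm.toMonoidHom) (comap_mono le_sup_left) (by
      rintro _ ⟨x, hx, rfl⟩
      exact mem_sup_right ⟨_, hx, by simp⟩)) h2
  simpa using this

theorem PN.sylow [Finite G] {G' : Type*} [Group G'] (e : G ≃* G') {S : Sylow 2 G'}
    (h : PN (S : Subgroup G')) (P : Sylow 2 G) : PN (P : Subgroup G) := by
  haveI := Finite.of_equiv _ e.toEquiv
  obtain ⟨g, hg⟩ := MulAction.exists_smul_eq G' (P.mapSurjective (f := e.toMonoidHom) e.surjective) S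
  convert h.comap (e.trans (MulAut.conj g))
  ext x
  rw [← hg, mem_comap]
  exact ⟨fun hx => ⟨_, ⟨x, hx, rfl⟩, rfl⟩, fun ⟨_, ⟨y, hy, rfl⟩, h1⟩ =>
    (e.trans (MulAut.conj g)).injective h1 ▸ hy⟩

theorem pronormal_pi {ι : Type*} [Finite ι] {A : ι → Type*} [∀ i, Group (A i)] [∀ i, Finite (A i)]
    (h : ∀ i (P : Sylow 2 (A i)), PN (P : Subgroup (A i))) {H : Subgroup (∀ i, A i)}
    (hH : ¬ 2 ∣ H.index) : Cfsg.IsPronormal H := by
  classical
  haveI := Fintype.ofFinite ι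
  obtain ⟨S, hS⟩ := Alt.exists_sylow_le_of_not_dvd_index hH
  let P := fun i => S.mapSurjective (f := Pi.evalMonoidHom A i) (Function.surjective_eval i)
  have a1 : ∀ x, x ∈ (S : Subgroup (∀ i, A i)) ↔ ∀ i, x i ∈ (P i : Subgroup (A i)) := fun x => by
    have := S.is_maximal' (Q := pi Set.univ fun i => (P i : Subgroup (A i))) (fun y => by
      choose k hk using fun i => (P i).isPGroup' ⟨y.1 i, y.2 i trivial⟩
      refine ⟨∑ i, k i, Subtype.ext (funext fun i => ?_)⟩
      obtain ⟨m, hm⟩ := pow_dvd_pow 2 (Finset.single_le_sum (f := k) (fun _ _ => Nat.zero_le _)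
        (Finset.mem_univ i))
      change y.1 i ^ _ = 1
      rw [hm, pow_mul, show y.1 i ^ _ = 1 from congrArg Subtype.val (hk i), one_pow])
      fun y hy i _ => ⟨y, hy, rfl⟩
    rw [← this]; simp [mem_pi]
  let L := fun i => H.comap (MonoidHom.mulSingle A i)
  have a2 : ∀ i, (P i : Subgroup (A i)) ≤ L i := fun i x hx => hS ((a1 _).2 fun j => by
    by_cases e : j = i
    · subst e; simpa using hx
    · simp [e, one_mem])
  have a3 : ∀ (K : Subgroup (∀ i, A i)) x, (∀ i, Pi.mulSingle i (x i) ∈ K) → x ∈ K :=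
    fun K x hx => pi_mem_of_mulSingle_mem x hx
  have a4 : ∀ (x : ∀ i, A i) i (a : A i), Pi.mulSingle i (x i * a * (x i)⁻¹) =
      x * Pi.mulSingle i a * x⁻¹ := fun x i a => funext fun j => by
    by_cases e : j = i
    · subst e; simp
    · simp [e]
  have a5 : ∀ g, g ∈ normalizer ((S : Subgroup (∀ i, A i)) : Set (∀ i, A i)) ↔
      ∀ i, g i ∈ normalizer ((P i : Subgroup (A i)) : Set (A i)) := fun g =>
    ⟨fun hg i => mem_normalizer_fintype fun _ ⟨x, hx, e⟩ =>
      ⟨_, (mem_normalizer_iff.1 hg x).1 hx, e ▸ rfl⟩, fun hg => mem_normalizer_fintype fun x hx =>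
        (a1 _).2 fun i => (mem_normalizer_iff.1 (hg i) _).1 ((a1 x).1 hx i)⟩
  refine GLn.pronormal_of_normalizer S hS fun g hg => ?_
  let k := fun i => if g i ∈ L i ⊔ (L i).map (MulAut.conj (g i)).toMonoidHom then g i else 1
  refine ⟨k, a3 _ _ fun i => ?_, ?_⟩
  · by_cases e : g i ∈ L i ⊔ (L i).map (MulAut.conj (g i)).toMonoidHom
    · simp only [k, if_pos e]
      exact (sup_le (c := (H ⊔ H.map (MulAut.conj g).toMonoidHom).comap (MonoidHom.mulSingle A i))
        (comap_mono le_sup_left) (by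
          rintro _ ⟨x, hx, rfl⟩
          exact mem_sup_right ⟨_, hx, (a4 g i x).symm⟩)) e
    · simp only [k, if_neg e, Pi.mulSingle_one, one_mem]
  have b1 : ∀ i, (k⁻¹ * g) i ∈ normalizer ((P i : Subgroup (A i)) : Set (A i)) ∧
      ∀ l ∈ L i, (k⁻¹ * g) i * l * ((k⁻¹ * g) i)⁻¹ ∈ L i := fun i => by
    by_cases e : g i ∈ L i ⊔ (L i).map (MulAut.conj (g i)).toMonoidHom
    · simp only [Pi.mul_apply, Pi.inv_apply, k, if_pos e]; simp [one_mem]
    · simpa only [Pi.mul_apply, Pi.inv_apply, k, if_neg e, inv_one, one_mul] using And.intro ((a5 g).1 hg i)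
        (((h i (P i)).1 _ (a2 i) _ ((a5 g).1 hg i)).resolve_left e)
  suffices k⁻¹ * g ∈ normalizer (H : Set (∀ i, A i)) by
    rw [← mul_inv_cancel_left k g, GLn.map_conj_mul, GLn.map_conj_eq_of_mem_normalizer this]
  refine mem_normalizer_fintype fun x hx => ?_
  obtain ⟨d, hd, b2⟩ := Alt.exists_conj_le_sylow S (D := pi Set.univ L)
    (fun y hy i _ => a2 i ((a1 y).1 hy i)) (Q := (S : Subgroup _).map (MulAut.conj x).toMonoidHom)
    (by
      rintro _ ⟨y, hy, rfl⟩ i -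
      exact (a4 x i (y i)).symm ▸ mul_mem (mul_mem hx (a2 i ((a1 y).1 hy i))) (inv_mem hx) |>
        id (α := Pi.mulSingle i (x i * y i * (x i)⁻¹) ∈ H))
    (S.isPGroup'.map _)
  have b3 : d * x ∈ normalizer ((S : Subgroup (∀ i, A i)) : Set (∀ i, A i)) :=
    mem_normalizer_fintype fun y hy => by
      simpa only [MulEquiv.coe_toMonoidHom, MulAut.conj_apply, mul_assoc, mul_inv_rev,
        SetLike.mem_coe] using b2 _ ⟨y, hy, rfl⟩
  generalize k⁻¹ * g = y at b1
  have b4 : y * (d * x) * y⁻¹ * (d * x)⁻¹ ∈ H :=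
    hS ((a1 _).2 fun i => (h i (P i)).2 _ (b1 i).1 _ ((a5 _).1 b3 i))
  have b5 : y * d * y⁻¹ ∈ H := a3 _ _ fun i => (b1 i).2 _ (hd i trivial)
  simpa [mul_assoc] using mul_mem (inv_mem b5)
    (mul_mem b4 (mul_mem (a3 _ _ fun i => hd i trivial) hx))

end Cfsg.Agent.Pron
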