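import Cfsg.Agent.Lib.Pron.Quat
import Cfsg.Agent.Lib.Forms.Card

/-!
Projections onto hyperbolic planes of a symplectic space, and how transvections arise.
-/

set_option autoImplicit false

namespace Cfsg.Agent.Pron

open Forms Module

variable {F V : Type*} [Field F] [AddCommGroup V] [Module F V] {f : Form (Param.sp F) V}

/-- the underlying endomorphism -/
def en : f.Isom →* End F V := LinearEquiv.automorphismGroup.toLinearMapMonoidHom.comp f.Isom.subtype

theorem en_apply (l : f.Isom) (v : V) : en l v = l.1 v := rfl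

theorem en_inj {l m : f.Isom} (h : en l = en m) : l = m :=
  Form.Isom.ext fun v => LinearMap.congr_fun h v

/-- conjugation of an endomorphism -/
def cj (l : f.Isom) : End F V ≃ₐ[F] End F V := l.1.conjAlgEquiv F

theorem cj_apply (l : f.Isom) (x : End F V) (v : V) : cj l x v = l.1 (x (l⁻¹.1 v)) := rfl

theorem cj_en (l m : f.Isom) : cj l (en m) = en (l * m * l⁻¹) := rfl

theorem cj_mul (l m : f.Isom) (x : End F V) : cj (l * m) x = cj l (cj m x) := rfl

theorem cj_one (x : End F V) : cj (1 : f.Isom) x = x := rfl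

theorem cj_eq {l : f.Isom} {x y : End F V} : cj l x = y ↔ en l * x = y * en l :=
  ⟨fun h => h ▸ LinearMap.ext fun v => by simp [cj_apply, en_apply], fun h => LinearMap.ext fun v => by
    simpa [en_apply, cj_apply] using LinearMap.congr_fun h (l⁻¹.1 v)⟩

/-- the endomorphisms which come from a subgroup -/
def EL (L : Subgroup f.Isom) : Submonoid (End F V) := L.toSubmonoid.map en

variable {L : Subgroup f.Isom} {x y φ ψ : End F V}

theorem en_mem {l : f.Isom} (h : l ∈ L) : en l ∈ EL L := ⟨l, h, rfl⟩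

theorem cancel_mem (h : φ ∈ EL L) (h' : φ * ψ ∈ EL L) : ψ ∈ EL L := by
  obtain ⟨l, hl, rfl⟩ := h
  simpa [← mul_assoc, ← map_mul] using mul_mem (en_mem (inv_mem hl)) h'

theorem cj_mem {l : f.Isom} (hl : l ∈ L) (h : φ ∈ EL L) : cj l φ ∈ EL L := by
  obtain ⟨m, hm, rfl⟩ := h
  exact en_mem (mul_mem (mul_mem hl hm) (inv_mem hl))

theorem conj_mem {χ : End F V} (h : φ ∈ EL L) (h' : ψ ∈ EL L) (e : φ * ψ = χ * φ) : χ ∈ EL L := by
  obtain ⟨l, hl, rfl⟩ := h
  exact cj_eq.2 e ▸ cj_mem hl h'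

variable (f) in
/-- adjoint endomorphisms -/
def Adj (φ ψ : End F V) : Prop := ∀ v w, f.B (φ v) w = f.B v (ψ w)

theorem Adj.symm (h : Adj f φ ψ) : Adj f ψ φ := fun v w => by
  rw [f.sp_symm, ← h, f.sp_symm, neg_neg]

theorem Adj.mul {φ' ψ' : End F V} (h : Adj f φ ψ) (h' : Adj f φ' ψ') : Adj f (φ * φ') (ψ' * ψ) :=
  fun v w => (h _ w).trans (h' v _)

theorem Adj.sub {φ' ψ' : End F V} (h : Adj f φ ψ) (h' : Adj f φ' ψ') : Adj f (φ - φ') (ψ - ψ') :=
  fun v w => by simp [h v w, h' v w]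

theorem Adj.smul (h : Adj f φ ψ) (a : F) : Adj f (a • φ) (a • ψ) :=
  fun v w => by simp [h v w]

theorem Adj.neg (h : Adj f φ ψ) : Adj f (-φ) (-ψ) := fun v w => by simp [h v w]

theorem adj_one : Adj f 1 1 := fun _ _ => rfl

variable (f) in
/-- the orthogonal projection onto a hyperbolic plane -/
def Pl (x : End F V) : Prop := ∃ e e', f.B e e' = 1 ∧ ∀ v, x v = f.B v e' • e - f.B v e • e'

namespace Pl

variable (h : Pl f x)
include h

theorem idem : x * x = x := by
  obtain ⟨e, e', h1, h2⟩ := h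
  ext v
  simp [h2, h1, f.sp_symm e e', f.sp_B_self]

theorem adj : Adj f x x := by
  obtain ⟨e, e', -, h2⟩ := h
  intro v w
  simp [h2, f.sp_symm w e, f.sp_symm w e']; ring

theorem ne_zero : x ≠ 0 := by
  obtain ⟨e, e', h1, h2⟩ := h
  rintro rfl
  have : e = 0 := by simpa [h1, f.sp_B_self] using (h2 e).symm
  simp [this] at h1

theorem cj (l : f.Isom) : Pl f (cj l x) := by
  obtain ⟨e, e', h1, h2⟩ := h
  exact ⟨l.1 e, l.1 e', by rw [Form.Isom.map_B, h1], fun v => by
    simp [cj_apply, h2, Form.Isom.B_right]⟩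

theorem both (h' : Pl f y) : ∃ c : F, x * y * x = c • x ∧ y * x * y = c • y := by
  obtain ⟨e, e', -, h2⟩ := h
  obtain ⟨g, g', -, h4⟩ := h'
  refine ⟨f.B e g' * f.B g e' - f.B e g * f.B g' e', ?_, ?_⟩ <;> ext v <;>
    simp [h2, h4, f.sp_symm e g, f.sp_symm e g', f.sp_symm e' g, f.sp_symm e' g'] <;> module

theorem plane {a b c : V} (ha : x a = a) (hb : x b = b) (hc : x c = c) :
    f.B a b • c + f.B b c • a + f.B c a • b = 0 := by
  obtain ⟨e, e', h1, h2⟩ := h
  rw [← ha, ← hb, ← hc]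
  simp [h2, h1, f.sp_symm e e', f.sp_B_self]; module

theorem nilp {s : End F V} (h1 : x * s = s) (h2 : s * x = s) (h3 : Adj f s (-s)) (h4 : s * s = 0) :
    ∃ (c : F) (a : V), x a = a ∧ ∀ v, s v = (c * f.B v a) • a := by
  obtain ⟨e, e', a1, a2⟩ := h
  have a3 : f.B (s e') e = f.B (s e) e' := by rw [h3 e, f.sp_symm]; simp
  have a4 : ∀ v, s v = f.B (s v) e' • e - f.B (s v) e • e' := fun v =>
    (LinearMap.congr_fun h1 v).symm.trans (a2 _)
  have a5 : ∀ v, s v = f.B v e' • s e - f.B v e • s e' := fun v =>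
    (LinearMap.congr_fun h2 v).symm.trans (by simp [a2])
  have a6 := congrArg (f.B · e') ((a5 _).symm.trans (LinearMap.congr_fun h4 e))
  simp only [f.B_sub_left, f.B_smul_left, LinearMap.zero_apply, f.B_zero_left] at a6
  have a7 := a4 e
  have a8 := a3 ▸ a4 e'
  generalize f.B (s e') e' = α, f.B (s e) e' = β, f.B (s e) e = γ at a6 a7 a8
  obtain rfl | a9 := eq_or_ne γ 0
  · obtain rfl : β = 0 := by simpa using a6
    exact ⟨-α, e, by simp [a2, a1, f.sp_B_self], fun v => by rw [a5, a7, a8]; module⟩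
  refine ⟨-γ⁻¹, s e, LinearMap.congr_fun h1 e, fun v => ?_⟩
  obtain rfl : α = β * β / γ := by field_simp; linear_combination -a6
  rw [a5, a7, a8, f.B_sub_right, f.sp_B_smul_right, f.sp_B_smul_right]
  match_scalars <;> field_simp <;> ring

theorem eq_of_comm {ι : Type*} [Fintype ι] {p : ι → End F V} (hp : ∀ i, Pl f (p i))
    (h1 : ∑ i, p i = 1) (h2 : ∀ i, p i * x = x * p i) : ∃ i, x = p i := by
  by_contra! h3
  refine h.ne_zero ?_
  rw [← mul_one x, ← h1, Finset.mul_sum]
  refine Finset.sum_eq_zero fun i _ => ?_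
  obtain ⟨c, a1, a2⟩ := h.both (hp i)
  rw [← h2, mul_assoc, h.idem, h2] at a1
  rw [h2, mul_assoc, (hp i).idem, a1] at a2
  rw [a1, not_not.1 fun e => h3 i (smul_right_injective _ e a2), zero_smul]

end Pl

/-- a unit of order four on the plane -/
structure Un (L : Subgroup f.Isom) (x ι : End F V) : Prop where
  xi : x * ι = ι
  ix : ι * x = ι
  ii : ι * ι = -x
  mem : 1 - x + ι ∈ EL L

theorem Un.adj {ι : End F V} (h : Un L x ι) (hx : Pl f x) : Adj f ι (-ι) := fun v w => by
  obtain ⟨l, -, hl⟩ := h.mem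
  have h1 : (1 - x - ι) * en l = 1 := by
    simp only [hl, mul_sub, sub_mul, mul_add, hx.idem, h.xi, h.ix, h.ii, mul_one, one_mul]; abel
  have h2 : en l⁻¹ = 1 - x - ι := by
    simpa [mul_assoc, ← map_mul] using (congrArg (· * en l⁻¹) h1).symm
  have h3 := Form.Isom.B_left l v w
  rw [← en_apply, ← en_apply, hl, h2] at h3
  simp only [LinearMap.add_apply, LinearMap.sub_apply, End.one_apply, f.B_add_left, f.B_sub_left,
    f.B_sub_right, hx.adj v w, LinearMap.neg_apply, f.B_neg_right] at h3 ⊢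
  linear_combination h3

theorem Un.cj {ι : End F V} (h : Un L x ι) {l : f.Isom} (hl : l ∈ L) : Un L (cj l x) (cj l ι) :=
  ⟨by rw [← map_mul, h.xi], by rw [← map_mul, h.ix], by rw [← map_mul, h.ii, map_neg],
    by simpa using cj_mem hl h.mem⟩

theorem Un.z {ι : End F V} (h : Un L x ι) (hx : x * x = x) : 1 - (2 : F) • x ∈ EL L := by
  convert mul_mem h.mem h.mem using 1
  simp only [mul_sub, sub_mul, mul_add, add_mul, hx, h.xi, h.ix, h.ii, mul_one, one_mul]; module

theorem Un.mul {ι κ : End F V} (h : Un L x ι) (h' : Un L x κ) (hx : x * x = x)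
    (e : κ * ι = -(ι * κ)) : Un L x (ι * κ) := by
  refine ⟨by rw [← mul_assoc, h.xi], by rw [mul_assoc, h'.ix], ?_, ?_⟩
  · rw [mul_assoc, ← mul_assoc κ, e, neg_mul, mul_assoc, h'.ii]; simp [h.ix, h.ii]
  · convert mul_mem h.mem h'.mem using 1
    simp only [mul_sub, sub_mul, mul_add, add_mul, hx, h'.xi, h.ix, mul_one, one_mul]; abel

theorem Un.eq_zero {ι κ : End F V} (h : Un L x ι) (h' : Un L x κ) (hx : Pl f x) (h2 : (2 : F) ≠ 0)
    (e : κ * ι = -(ι * κ)) {a : V} (ha : x a = a) (h3 : f.B a (ι a) = 0) (h4 : f.B a (κ a) = 0) :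
    a = 0 := by
  have key : ∀ {ι : End F V}, Un L x ι → f.B a (ι a) = 0 → ∀ c, x c = c →
      f.B c a • ι a = -f.B (ι a) c • a := fun h h3 c hc => by
    have := hx.plane ha (LinearMap.congr_fun h.xi a) hc
    rw [h3] at this
    linear_combination (norm := module) this
  have a1 : ∀ c, x c = c → f.B c a • a = 0 := fun c hc => by
    have b1 := key h h3 c hc
    have b2 := key h' h4 c hc
    have b3 := congrArg κ b1
    have b4 := congrArg ι b2
    have b5 := congrArg ι b1
    have b6 := congrArg κ b2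
    have b7 : κ (ι a) = -ι (κ a) := LinearMap.congr_fun e a
    have b8 : ι (ι a) = -a := (LinearMap.congr_fun h.ii a).trans (congrArg _ ha)
    have b9 : κ (κ a) = -a := (LinearMap.congr_fun h'.ii a).trans (congrArg _ ha)
    simp only [map_smul, b7, b8, b9] at b3 b4 b5 b6
    generalize f.B c a = t, f.B (ι a) c = r, f.B (κ a) c = s at *
    have b0 : (2 * r * s) • a = 0 := by
      linear_combination (norm := module) r • b2 + s • b1 - t • b3 - t • b4
    rcases smul_eq_zero.1 b0 with b0 | b0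
    · rcases mul_eq_zero.1 b0 with b0 | rfl
      · rw [(mul_eq_zero.1 b0).resolve_left h2] at b5
        linear_combination (norm := module) -b5
      · linear_combination (norm := module) -b6
    · rw [b0, smul_zero]
  obtain ⟨e, e', c1, c2⟩ := hx
  have c3 := a1 e (by simp [c2, c1, f.sp_B_self])
  have c4 := a1 e' (by simp [c2, c1, f.sp_B_self, f.sp_symm e e'])
  by_contra c5
  exact c5 (by rw [← ha, c2, f.sp_symm e, f.sp_symm e', (smul_eq_zero.1 c3).resolve_right c5,
    (smul_eq_zero.1 c4).resolve_right c5]; simp)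

/-- a unipotent element moving the plane -/
structure UH (L : Subgroup f.Isom) (x p q C : End F V) : Prop where
  adj : Adj f p q
  px : p * x = p
  xp : x * p = 0
  xq : x * q = q
  qx : q * x = 0
  qp : q * p = 0
  xC : x * C = 0
  Cx : C * x = 0
  Cp : C * p = 0
  qC : q * C = 0
  mem : 1 + p - q + C ∈ EL L

section
variable {p q C ι κ : End F V} (h : UH L x p q C) (hx : Pl f x) (hι : Un L x ι)
include h hx hι

theorem UH.aux : ι * p = 0 ∧ q * ι = 0 ∧ ι * C = 0 ∧ C * ι = 0 ∧ p * p = 0 ∧ q * q = 0 ∧ p * C = 0 ∧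
    C * q = 0 := by
  refine ⟨?_, ?_, ?_, ?_, ?_, ?_, ?_, ?_⟩
  · rw [← hι.ix, mul_assoc, h.xp, mul_zero]
  · rw [← hι.xi, ← mul_assoc, h.qx, zero_mul]
  · rw [← hι.ix, mul_assoc, h.xC, mul_zero]
  · rw [← hι.xi, ← mul_assoc, h.Cx, zero_mul]
  · rw [← mul_zero p, ← h.xp, ← mul_assoc, h.px]
  · rw [← zero_mul q, ← h.qx, mul_assoc, h.xq]
  · rw [← mul_zero p, ← h.xC, ← mul_assoc, h.px]
  · rw [← zero_mul q, ← h.Cx, mul_assoc, h.xq]

theorem UH.conj : UH L x (-(p * ι)) (ι * q) C := by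
  obtain ⟨a1, a2, a3, a4, -⟩ := h.aux hx hι
  refine ⟨by simpa using ((h.adj.mul (hι.adj hx)).neg), by simp [mul_assoc, hι.ix],
    by simp [← mul_assoc, h.xp], by simp [← mul_assoc, hι.xi], by simp [mul_assoc, h.qx],
    by simp [mul_assoc, ← mul_assoc q, h.qp], h.xC, h.Cx, by simp [← mul_assoc, h.Cp],
    by simp [mul_assoc, h.qC], conj_mem hι.mem h.mem ?_⟩
  simp only [mul_sub, sub_mul, mul_add, add_mul, neg_mul, mul_neg, mul_assoc, hι.ix, hι.ii, mul_one, one_mul, a1, a2, a3, a4, h.px, h.xp, h.xq, h.qx, h.xC, h.Cx, mul_zero]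
  abel

theorem UH.comm : 1 + (2 : F) • (p * ι * q) ∈ EL L := by
  obtain ⟨a1, a2, a3, a4, a5, a6, a7, a8⟩ := h.aux hx hι
  refine cancel_mem (mul_mem h.mem (h.conj hx hι).mem) ?_
  convert mul_mem (h.conj hx hι).mem h.mem using 1
  have b : ∀ {a b : End F V}, a * b = 0 → ∀ c, a * (b * c) = 0 := fun h c => by
    rw [← mul_assoc, h, zero_mul]
  simp only [mul_sub, sub_mul, mul_add, add_mul, neg_mul, mul_neg, mul_assoc, mul_smul_comm,
    mul_one, one_mul, a1, a3, a6, a7, a8, h.qp, h.Cp, h.qC, b a1, b a2, b a5, b h.qp,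
    b h.Cp, b a4, mul_zero, zero_mul, neg_zero]
  module

end

variable (f) in
/-- a map of rank one -/
def rk (a b : V) : End F V := (f.B.flip a).smulRight b

theorem rk_apply (a b v : V) : rk f a b v = f.B v a • b := rfl

/-- `L` contains a transvection with centre `r` -/
def TV (L : Subgroup f.Isom) (r : V) : Prop := ∃ c : F, c ≠ 0 ∧ 1 + c • rk f r r ∈ EL L

theorem UH.tv [Finite F] {p q C ι κ : End F V} (h : UH L x p q C) (hx : Pl f x) (hι : Un L x ι)
    (hκ : Un L x κ) (e : κ * ι = -(ι * κ)) (h2 : (2 : F) ≠ 0) (hp : p ≠ 0) :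
    ∃ a, p a ≠ 0 ∧ TV L (p a) := by
  obtain ⟨r, hr⟩ := CharP.exists F
  haveI : NeZero r := ⟨(CharP.char_is_prime F r).ne_zero⟩
  obtain ⟨n, k, hnk⟩ := CharP.sq_add_sq F r (-1)
  have hικ := hι.mul hκ hx.idem e
  have a1 : ∀ t, κ * (ι * t) = -(ι * (κ * t)) := fun t => by rw [← mul_assoc, e, neg_mul, mul_assoc]
  have a2 : ∀ t, ι * (ι * t) = -(x * t) := fun t => by rw [← mul_assoc, hι.ii, neg_mul]
  obtain ⟨c, a, ha, hs⟩ := hx.nilp (s := ι * κ + n • ι + k • κ)
    (by simp only [mul_add, mul_smul_comm, hικ.xi, hι.xi, hκ.xi])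
    (by simp only [add_mul, smul_mul_assoc, hικ.ix, hι.ix, hκ.ix])
    (fun v w => by
      simp [hικ.adj hx v w, hι.adj hx v w, hκ.adj hx v w, -End.mul_apply, -nsmul_eq_mul]; ring) (by
      simp only [add_mul, mul_add, mul_smul_comm, smul_mul_assoc, mul_assoc, a1, a2, e, hι.ii, hκ.ii,
        mul_neg, hι.ix, hκ.xi, neg_neg]
      linear_combination (norm := module) (-hnk) • x)
  have a3 : c ≠ 0 ∧ a ≠ 0 := by
    by_contra! h0
    have b1 : ι * κ + n • ι + k • κ = 0 := LinearMap.ext fun v => by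
      rw [hs]; by_cases c0 : c = 0 <;> simp [*]
    have b2 := congrArg (fun t => ι * κ * t + t * (ι * κ)) b1
    simp only [add_mul, mul_add, mul_smul_comm, smul_mul_assoc, mul_assoc, a1, a2, e, hι.ii, hκ.ii,
      mul_neg, hι.ix, hκ.xi, neg_neg, mul_zero, zero_mul] at b2
    exact hx.ne_zero (smul_right_injective _ h2 (by
      linear_combination (norm := module) -b2 : (2 : F) • x = (2 : F) • 0))
  have key : ∀ {p q : End F V}, UH L x p q C → p a ≠ 0 → TV L (p a) := fun {p q} h hp => by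
    let M : AddSubmonoid (End F V) :=
      { carrier := {t | 1 + (2 : F) • (p * t * q) ∈ EL L}
        zero_mem' := by simp [one_mem]
        add_mem' := fun {s t} h1 h2 => by
          change _ ∈ EL L
          convert (EL L).mul_mem h1 h2 using 1
          simp only [mul_add, add_mul, mul_one, one_mul, smul_mul_assoc, mul_smul_comm, mul_assoc,
            ← mul_assoc q p, h.qp, zero_mul, mul_zero]
          module }
    refine ⟨2 * c, mul_ne_zero h2 a3.1, ?_⟩
    have b1 : 1 + (2 : F) • (p * (ι * κ + n • ι + k • κ) * q) ∈ EL L := M.add_mem (M.add_mem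
      (h.comm hx hικ) (M.nsmul_mem (h.comm hx hι) n)) (M.nsmul_mem (h.comm hx hκ) k)
    convert b1 using 2
    ext v
    simp only [LinearMap.smul_apply, End.mul_apply (p * _), End.mul_apply p, hs, rk_apply, map_smul,
      h.adj.symm v a]
    module
  by_contra! h0
  have b1 : p a = 0 := by_contra fun e => h0 a e (key h e)
  have b2 : ∀ {ι : End F V}, Un L x ι → f.B a (ι a) = 0 := fun {ι} hι => by
    have c1 : p (ι a) = 0 := by_contra fun e => h0 (-ι a) (by simpa using e)
      (by simpa using key (h.conj hx hι) (by simpa using e))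
    obtain ⟨w, hw⟩ := DFunLike.ne_iff.1 hp
    have c2 := congrArg p (hx.plane ha (LinearMap.congr_fun hι.xi a) (LinearMap.congr_fun hx.idem w))
    simp only [map_add, map_smul, b1, c1, smul_zero, add_zero, map_zero,
      show p (x w) = p w from LinearMap.congr_fun h.px w] at c2
    exact (smul_eq_zero.1 c2).resolve_right hw
  exact a3.2 (hι.eq_zero hκ hx h2 e ha (b2 hι) (b2 hκ))

end Cfsg.Agent.Pron
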