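import Cfsg.Agent.Lib.Pron.Geo

/-!
Two hyperbolic planes in general position.
-/

set_option autoImplicit false

namespace Cfsg.Agent.Pron

open Forms Module

variable {F V : Type*} [Field F] [AddCommGroup V] [Module F V] {f : Form (Param.sp F) V}

/-- quaternions inside a ring -/
def QU.theta {R : Type*} [Ring R] [Algebra F R] (ν : F) {E I A : R} (EE : E * E = E)
    (EI : E * I = I) (IE : I * E = I) (EA : E * A = A) (AE : A * E = A) (II : I * I = -E)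
    (AA : A * A = -(ν • E)) (AI : A * I = -(I * A)) : QU ν →* R where
  toFun u := 1 - E + u.a • E + u.b • I + u.c • A + u.d • (I * A)
  map_one' := by simp
  map_mul' u v := by
    have a1 : ∀ t, I * (I * t) = -(E * t) := fun t => by rw [← mul_assoc, II, neg_mul]
    have a2 : ∀ t, A * (I * t) = -(I * (A * t)) := fun t => by
      rw [← mul_assoc, AI, neg_mul, mul_assoc]
    have a3 : ∀ t, E * (I * t) = I * t := fun t => by rw [← mul_assoc, EI]
    simp only [QU.mul_a, QU.mul_b, QU.mul_c, QU.mul_d, mul_add, add_mul, mul_sub, sub_mul, mul_one,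
      one_mul, mul_smul_comm, smul_mul_assoc, mul_assoc, EE, EI, IE, EA, AE, II, AA, AI, a1, a2, a3,
      mul_neg, neg_neg]
    module

variable {L : Subgroup f.Isom} {x y ι : End F V}

theorem generic_aux [Finite F] (h2 : (2 : F) ≠ 0) (hsq : ¬ IsSquare (2 : F)) (hx : x ≠ 0)
    (xx : x * x = x) (hι : Un L x ι) {p q : End F V} (px : p * x = p) (xp : x * p = 0)
    (xq : x * q = q) (qx : q * x = 0) (qp : q * p = x) {c : F} (hν : c * (1 - c) ≠ 0)
    (hy : y = c • x + p + (c * (1 - c)) • q + (1 - c) • (p * q)) (hz : 1 - (2 : F) • y ∈ EL L) :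
    ∃ x', (x' = y ∨ ∃ l ∈ L, x' = cj l x) ∧
      ((1 - (2 : F) • x) * (1 - (2 : F) • x')) ^ 4 = 1 ∧ x * x' ≠ x' * x := by
  have b : ∀ {a b c : End F V}, a * b = c → ∀ t, a * (b * t) = c * t := fun h c => by
    rw [← mul_assoc, h]
  have ip : ι * p = 0 := by rw [← hι.ix, mul_assoc, xp, mul_zero]
  have qi : q * ι = 0 := by rw [← hι.xi, ← mul_assoc, qx, zero_mul]
  set ν := c * (1 - c)
  obtain ⟨E, I, A, J, hE, hI, hA, hJ, rel⟩ : ∃ E I A J : End F V, E = x + p * q ∧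
      I = -ι + p * ι * q ∧ A = ν • (ι * q) + p * ι ∧ J = 1 - E + (ι + p * ι * q) ∧
      (E * E = E ∧ E * I = I ∧ I * E = I ∧ E * A = A ∧ A * E = A ∧ I * I = -E ∧
      A * A = -(ν • E) ∧ A * I = -(I * A)) ∧
      (J * E = E * J ∧ J * I = I * J ∧ J * A = A * J ∧ J * J = 1 - (2 : F) • E ∧ E * x = x) ∧
      (1 - (2 : F) • x = (1 - E + I) * (J * J * J) ∧ 1 - (2 : F) • y =
        (1 - E + (2 * c - 1) • I - (2 : F) • A) * (J * J * J)) ∧
      (1 - x + ι) * E = E * (1 - x + ι) ∧ (1 - x + ι) * I = I * (1 - x + ι) ∧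
      (1 - x + ι) * J = J * (1 - x + ι) ∧ (1 - x + ι) * A = -(I * A * (1 - x + ι)) ∧
      (1 - x + ι) * (I * A) = A * (1 - x + ι) := by
    refine ⟨_, _, _, _, rfl, rfl, rfl, rfl, ⟨?_, ?_, ?_, ?_, ?_, ?_, ?_, ?_⟩, ⟨?_, ?_, ?_, ?_, ?_⟩,
      ⟨?_, ?_⟩, ?_, ?_, ?_, ?_, ?_⟩ <;>
    simp only [hy, mul_add, add_mul, mul_sub, sub_mul, mul_one, one_mul, mul_smul_comm, neg_mul,
      smul_mul_assoc, mul_assoc, xx, px, xp, xq, qx, ip, qi, hι.xi, hι.ix, hι.ii,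
      b xp, b qp, b ip, b qi, b hι.xi, b hι.ii, mul_neg,
      neg_neg, mul_zero, zero_mul, neg_zero, smul_zero, add_zero, zero_add, sub_zero] <;> module
  clear hE hI hA hJ
  obtain ⟨⟨r1, r2, r3, r4, r5, r6, r7, r8⟩, ⟨s1, s2, s3, s4, s5⟩, ⟨t1, t2⟩, u1, u2, u3, u4, u5⟩ := rel
  let θ := QU.theta ν r1 r2 r3 r4 r5 r6 r7 r8
  have hθ : ∀ u, θ u = 1 - E + u.a • E + u.b • I + u.c • A + u.d • (I * A) := fun _ => rfl
  have c1 : ∀ u, Commute (θ u) J := fun u => by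
    simp only [Commute, SemiconjBy, hθ, mul_add, add_mul, mul_sub, sub_mul, mul_one, one_mul,
      mul_smul_comm, smul_mul_assoc, s1, s2, s3, b s2, mul_assoc]
  have c2 : J * J = θ (-1) := by rw [s4, hθ]; simp; module
  have c3 : ∀ u v k m, θ u * J ^ k * (θ v * J ^ m) = θ (u * v) * J ^ (k + m) := fun u v k m => by
    rw [map_mul, pow_add, mul_assoc, mul_assoc, ← mul_assoc _ (θ v), ← ((c1 v).pow_right k).eq,
      mul_assoc]
  let Γ : Subgroup (QU ν) :=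
    { carrier := {u | ∃ k, θ u * J ^ k ∈ EL L}
      one_mem' := ⟨0, by simp [one_mem]⟩
      mul_mem' := fun ⟨k, hk⟩ ⟨m, hm⟩ => ⟨_, c3 _ _ _ _ ▸ mul_mem hk hm⟩
      inv_mem' := fun {u} ⟨k, hk⟩ => ⟨k * (orderOf u - 1), by
        convert pow_mem hk (orderOf u - 1) using 1
        rw [((c1 u).pow_right k).mul_pow, ← map_pow, ← pow_mul, inv_eq_of_mul_eq_one_left
          (by rw [← pow_succ, Nat.sub_add_cancel (orderOf_pos u), pow_orderOf_eq_one])]⟩ }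
  let w : QU ν := ⟨0, 2 * c - 1, -2, 0, by simp only [ν]; ring⟩
  have d1 : 1 - (2 : F) • x = θ (QU.qI ν) * J ^ 3 := by rw [t1, hθ, pow_three']; simp
  have d2 : 1 - (2 : F) • y = θ w * J ^ 3 := by
    rw [t2, hθ, pow_three']; simp [w, sub_eq_add_neg]
  obtain ⟨x', t, d3, d4, d5, d6⟩ : ∃ x' t, (x' = y ∨ ∃ l ∈ L, x' = cj l x) ∧
      1 - (2 : F) • x' = θ t * J ^ 3 ∧ t.a = 0 ∧ t.b = 0 := by
    by_cases e : 2 * c - 1 = 0
    · exact ⟨y, w, .inl rfl, d2, rfl, e⟩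
    obtain ⟨u, ⟨k, l, hl, hk⟩, hu⟩ := QU.exists_anticomm h2 hsq hν (Γ := Γ) ⟨3, d1 ▸ hι.z xx⟩
      (fun u ⟨k, hk⟩ => ⟨k, conj_mem hι.mem hk (by
        rw [← mul_assoc, mul_assoc _ (J ^ k), ← (Commute.pow_right u3 k).eq, ← mul_assoc]
        congr 1
        generalize 1 - x + ι = h at *
        simp only [hθ, mul_add, add_mul, mul_sub, sub_mul, mul_one, one_mul, mul_smul_comm,
          smul_mul_assoc, u1, u2, u4, u5, QU.rot_a, QU.rot_b, QU.rot_c, QU.rot_d]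
        module)⟩) (w := w) ⟨3, d2 ▸ hz⟩ rfl e (neg_ne_zero.2 h2) rfl
    refine ⟨cj l x, _, .inr ⟨l, hl, rfl⟩, ?_, QU.conj_a _ _, hu⟩
    rw [← map_one (cj l), ← map_smul, ← map_sub, cj_eq, hk, d1, c3, c3, inv_mul_cancel_right,
      add_comm]
  have d7 : ((1 - (2 : F) • x) * (1 - (2 : F) • x')) ^ 2 = J * J := by
    rw [sq, d1, d4, c3, c3, QU.sq_of_pure (by simp [d5, d6]), show 3 + 3 + (3 + 3) = 2 * (2 * 3) by rfl,
      pow_mul, sq, c2, ← map_pow, ← map_mul]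
    simp [pow_succ]
  refine ⟨x', d3, by rw [show 4 = 2 * 2 by rfl, pow_mul, d7, c2, ← map_pow]; simp, fun e => ?_⟩
  have d8 : Commute (1 - (2 : F) • x) (1 - (2 : F) • x') :=
    (Commute.one_left _).sub_left ((Commute.one_right _).sub_right ((Commute.smul_left e _).smul_right _))
  have d9 : ∀ t : QU ν, t.a = 0 → (θ t * J ^ 3) ^ 2 = 1 := fun t ht => by
    rw [sq, c3, QU.sq_of_pure ht, show 3 + 3 = 2 * 3 by rfl, pow_mul, sq, c2, ← map_pow, ← map_mul]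
    simp [pow_succ]
  rw [d8.mul_pow, d1, d4, d9 _ rfl, d9 _ d5, s4, mul_one, eq_sub_iff_add_eq, add_eq_left] at d7
  exact hx (by rw [← s5, (smul_eq_zero.1 d7).resolve_left h2, zero_mul])

theorem generic [Finite F] (h2 : (2 : F) ≠ 0) (hsq : ¬ IsSquare (2 : F)) (hx : Pl f x)
    (hι : Un L x ι) {c : F} (h3 : x * y * x = c • x) (h4 : y * x * y = c • y) (c0 : c ≠ 0)
    (c1 : c ≠ 1) (yy : y * y = y) (hz : 1 - (2 : F) • y ∈ EL L) :
    ∃ x', (x' = y ∨ ∃ l ∈ L, x' = cj l x) ∧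
      ((1 - (2 : F) • x) * (1 - (2 : F) • x')) ^ 4 = 1 ∧ x * x' ≠ x' * x := by
  have hν := mul_ne_zero c0 (sub_ne_zero.2 c1.symm)
  have b : ∀ {a b c : End F V}, a * b = c → ∀ t, a * (b * t) = c * t := fun h c => by
    rw [← mul_assoc, h]
  have xx := hx.idem
  rw [mul_assoc] at h3 h4
  refine generic_aux h2 hsq hx.ne_zero xx hι (p := (1 - x) * y * x)
    (q := (c * (1 - c))⁻¹ • (x * y * (1 - x))) ?_ ?_ ?_ ?_ ?_ hν ?_ hz <;>
    simp only [mul_sub, sub_mul, mul_one, one_mul, mul_smul_comm, smul_mul_assoc, mul_assoc, xx, b xx,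
      b yy, h3, h4, sub_self, smul_zero] <;> match_scalars <;> field_simp <;> ring

theorem comm_of [Finite F] (hf : f.Nondeg) (h2 : (2 : F) ≠ 0) (hsq : ¬ IsSquare (2 : F))
    (hx : Pl f x) (hy : Pl f y) {κ : End F V} (hι : Un L x ι) (hκ : Un L x κ)
    (e : κ * ι = -(ι * κ)) (hz : 1 - (2 : F) • y ∈ EL L) (hT : ∀ r, r ≠ 0 → ¬ TV L r)
    (hE : ∀ x', (x' = y ∨ ∃ l ∈ L, x' = cj l x) →
      ((1 - (2 : F) • x) * (1 - (2 : F) • x')) ^ 4 = 1 → x * x' = x' * x) : x * y = y * x := by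
  obtain ⟨c, h3, h4⟩ := hx.both hy
  have xx := hx.idem
  have yy := hy.idem
  have key : ∀ {p q C}, UH L x p q C → p = 0 ∧ q = 0 := fun {p q C} h => by
    obtain rfl : p = 0 := by_contra fun h0 => by
      obtain ⟨a, h5, h6⟩ := h.tv hx hι hκ e h2 h0
      exact hT _ h5 h6
    exact ⟨rfl, LinearMap.ext fun w => hf.right _ fun v => by simpa using (h.adj v w).symm⟩
  have b : ∀ {a b c : End F V}, a * b = c → ∀ t, a * (b * t) = c * t := fun h c => by
    rw [← mul_assoc, h]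
  rw [mul_assoc] at h3 h4
  have hzz := mul_mem (hι.z xx) hz
  obtain rfl | c0 := eq_or_ne c 0
  · have h4' : (2 * 2 : F) ≠ 0 := mul_ne_zero h2 h2
    obtain ⟨h5, h6⟩ := key (p := (2 * 2 : F) • (y * x)) (q := (2 * 2 : F) • (x * y)) (C := 0) (by
      refine ⟨(hy.adj.mul hx.adj).smul _, ?_, ?_, ?_, ?_, ?_, ?_, ?_, ?_, ?_,
        (congrArg (· ∈ EL L) ?_).mp (mul_mem hzz hzz)⟩ <;>
      simp only [mul_sub, sub_mul, mul_one, one_mul, mul_smul_comm, smul_mul_assoc, mul_assoc, xx,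
        yy, b xx, b yy, h3, h4, zero_smul, smul_zero, mul_zero, zero_mul]
      module)
    rw [(smul_eq_zero.1 h5).resolve_left h4', (smul_eq_zero.1 h6).resolve_left h4']
  obtain rfl | c1 := eq_or_ne c 1
  · obtain ⟨h5, h6⟩ := key (p := (-2 : F) • ((1 - x) * y * x)) (q := (-2 : F) • (x * (y * (1 - x))))
      (C := (-2 : F) • ((1 - x) * y * x * y * (1 - x))) (by
      refine ⟨(((adj_one.sub hx.adj).mul hy.adj).mul hx.adj).smul _, ?_, ?_, ?_, ?_, ?_, ?_, ?_, ?_,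
        ?_, (congrArg (· ∈ EL L) ?_).mp hzz⟩ <;>
      simp only [mul_sub, sub_mul, mul_one, one_mul, mul_smul_comm, smul_mul_assoc, mul_assoc, xx,
        yy, b xx, b yy, h3, h4, one_smul, sub_self, smul_zero]
      module)
    replace h5 := (smul_eq_zero.1 h5).resolve_left (neg_ne_zero.2 h2)
    replace h6 := (smul_eq_zero.1 h6).resolve_left (neg_ne_zero.2 h2)
    simp only [mul_sub, sub_mul, mul_one, one_mul, mul_assoc, sub_eq_zero] at h5 h6
    rw [h6, ← h5]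
  obtain ⟨x', h5, h6, h7⟩ := generic h2 hsq hx hι (by rwa [mul_assoc]) (by rwa [mul_assoc]) c0 c1 yy hz
  exact (h7 (hE x' h5 h6)).elim

end Cfsg.Agent.Pron
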