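import Cfsg.Agent.Lib.Pron.Gen

/-!
A Sylow argument in the group of quaternions of norm one over a finite field.
-/

set_option autoImplicit false

namespace Cfsg.Agent.Pron

variable {F : Type*} [Field F]

/-- quaternions of norm one, `i² = -1`, `j² = -ν` -/
@[ext] structure QU (ν : F) where
  a : F
  b : F
  c : F
  d : F
  h : a ^ 2 + b ^ 2 + ν * (c ^ 2 + d ^ 2) = 1

namespace QU

variable {ν : F}

instance : Mul (QU ν) := ⟨fun x y => ⟨x.a * y.a - x.b * y.b - ν * (x.c * y.c + x.d * y.d),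
  x.a * y.b + x.b * y.a + ν * (x.c * y.d - x.d * y.c), x.a * y.c + x.c * y.a + x.d * y.b - x.b * y.d,
  x.a * y.d + x.d * y.a + x.b * y.c - x.c * y.b, by
    linear_combination (y.a ^ 2 + y.b ^ 2 + ν * (y.c ^ 2 + y.d ^ 2)) * x.h + y.h⟩⟩
instance : One (QU ν) := ⟨⟨1, 0, 0, 0, by simp⟩⟩
instance : Inv (QU ν) := ⟨fun x => ⟨x.a, -x.b, -x.c, -x.d, by simpa using x.h⟩⟩
instance : Neg (QU ν) := ⟨fun x => ⟨-x.a, -x.b, -x.c, -x.d, by simpa using x.h⟩⟩

section
variable (x y : QU ν)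
@[simp] theorem mul_a : (x * y).a = x.a * y.a - x.b * y.b - ν * (x.c * y.c + x.d * y.d) := rfl
@[simp] theorem mul_b : (x * y).b = x.a * y.b + x.b * y.a + ν * (x.c * y.d - x.d * y.c) := rfl
@[simp] theorem mul_c : (x * y).c = x.a * y.c + x.c * y.a + x.d * y.b - x.b * y.d := rfl
@[simp] theorem mul_d : (x * y).d = x.a * y.d + x.d * y.a + x.b * y.c - x.c * y.b := rfl
@[simp] theorem one_a : (1 : QU ν).a = 1 := rfl
@[simp] theorem one_b : (1 : QU ν).b = 0 := rfl
@[simp] theorem one_c : (1 : QU ν).c = 0 := rfl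
@[simp] theorem one_d : (1 : QU ν).d = 0 := rfl
@[simp] theorem inv_a : x⁻¹.a = x.a := rfl
@[simp] theorem inv_b : x⁻¹.b = -x.b := rfl
@[simp] theorem inv_c : x⁻¹.c = -x.c := rfl
@[simp] theorem inv_d : x⁻¹.d = -x.d := rfl
@[simp] theorem neg_a : (-x).a = -x.a := rfl
@[simp] theorem neg_b : (-x).b = -x.b := rfl
@[simp] theorem neg_c : (-x).c = -x.c := rfl
@[simp] theorem neg_d : (-x).d = -x.d := rfl
end

instance : Group (QU ν) := Group.ofLeftAxioms (fun x y z => by ext <;> simp <;> ring)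
  (fun x => by ext <;> simp) fun x => by
    ext <;> simp
    exacts [by linear_combination x.h, by ring, by ring, by ring]

instance : HasDistribNeg (QU ν) where
  neg_neg x := by ext <;> simp
  neg_mul x y := by ext <;> simp <;> ring
  mul_neg x y := by ext <;> simp <;> ring

instance [Finite F] : Finite (QU ν) := Finite.of_injective (fun x : QU ν => (x.a, x.b, x.c, x.d))
  fun x y h => by ext <;> simp_all

/-- the quaternion `i` -/
def qI (ν : F) : QU ν := ⟨0, 1, 0, 0, by simp⟩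

@[simp] theorem qI_a : (qI ν).a = 0 := rfl
@[simp] theorem qI_b : (qI ν).b = 1 := rfl
@[simp] theorem qI_c : (qI ν).c = 0 := rfl
@[simp] theorem qI_d : (qI ν).d = 0 := rfl

/-- conjugation by `1 - i` -/
def rot (ν : F) : MulAut (QU ν) where
  toFun x := ⟨x.a, x.b, x.d, -x.c, by linear_combination x.h⟩
  invFun x := ⟨x.a, x.b, -x.d, x.c, by linear_combination x.h⟩
  left_inv x := by ext <;> simp
  right_inv x := by ext <;> simp
  map_mul' x y := by ext <;> simp only [mul_a, mul_b, mul_c, mul_d] <;> ring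

@[simp] theorem rot_a (x : QU ν) : (rot ν x).a = x.a := rfl
@[simp] theorem rot_b (x : QU ν) : (rot ν x).b = x.b := rfl
@[simp] theorem rot_c (x : QU ν) : (rot ν x).c = x.d := rfl
@[simp] theorem rot_d (x : QU ν) : (rot ν x).d = -x.c := rfl

theorem conj_a (x y : QU ν) : (x * y * x⁻¹).a = y.a := by simp; linear_combination y.a * x.h

theorem sq_of_pure {x : QU ν} (h : x.a = 0) : x * x = -1 := by
  ext <;> simp [h]
  exacts [by linear_combination -x.h + x.a * h, .inr (by ring), by ring, by ring]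

theorem eq_or_of_im {x : QU ν} (h1 : x.b = 0) (h2 : x.c = 0) (h3 : x.d = 0) : x = 1 ∨ x = -1 :=
  (show x.a = 1 ∨ x.a = -1 by simpa [h1, h2, h3] using x.h).imp
    (fun h => by ext <;> simp [*]) fun h => by ext <;> simp [*]

theorem two_elt (h2 : (2 : F) ≠ 0) (hsq : ¬ IsSquare (2 : F)) (k : ℕ) :
    ∀ t : QU ν, t ^ 2 ^ k = 1 → (t = 1 ∨ t = -1) ∨ t.a = 0 := by
  induction k with
  | zero => exact fun t h => .inl (.inl (by simpa using h))
  | succ k ih =>
    intro t h
    by_cases h0 : t.a = 0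
    · exact .inr h0
    have h4 : ∀ z, 2 * t.a * z = 0 → z = 0 := fun z e =>
      (mul_eq_zero.1 e).resolve_left (mul_ne_zero h2 h0)
    rcases ih (t * t) (by rw [← sq, ← pow_mul, ← pow_succ', h]) with h | h
    · refine .inl (eq_or_of_im (h4 _ ?_) (h4 _ ?_) (h4 _ ?_)) <;> rcases h with h | h
      all_goals
        have h1 := congrArg QU.b h; have h2 := congrArg QU.c h; have h3 := congrArg QU.d h
        simp only [mul_b, mul_c, mul_d, one_b, one_c, one_d, neg_b, neg_c, neg_d] at h1 h2 h3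
        first | linear_combination h1 | linear_combination h2 | linear_combination h3
    · exact absurd ⟨2 * t.a, by rw [mul_a] at h; linear_combination -2 * h - 2 * t.h⟩ hsq

theorem comm_eqs (h2 : (2 : F) ≠ 0) (hν : ν ≠ 0) {x y : QU ν} (h : x * y = y * x) :
    x.c * y.d = x.d * y.c ∧ x.d * y.b = x.b * y.d ∧ x.b * y.c = x.c * y.b := by
  have h1 := congrArg QU.b h; have h3 := congrArg QU.c h; have h4 := congrArg QU.d h
  simp only [mul_b, mul_c, mul_d] at h1 h3 h4
  exact ⟨mul_left_cancel₀ (mul_ne_zero h2 hν) (by linear_combination h1),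
    mul_left_cancel₀ h2 (by linear_combination h3), mul_left_cancel₀ h2 (by linear_combination h4)⟩

theorem odd_card_sylow' [Finite F] (h2 : (2 : F) ≠ 0) (hsq : ¬ IsSquare (2 : F)) (hν : ν ≠ 0)
    {Γ : Subgroup (QU ν)} (hI : qI ν ∈ Γ) (h : ∀ u ∈ Γ, (u * qI ν * u⁻¹).b ≠ 0)
    {r : ℕ} [Fact r.Prime] (hr : r ≠ 2) : ¬ 2 ∣ Nat.card (Sylow r Γ) := by
  have hII : qI ν * qI ν = -1 := sq_of_pure rfl
  have h4 : ∀ x : Γ, x.1.a = 0 → x ^ 2 ^ 2 = 1 := fun x hx => Subtype.ext (by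
    simp [pow_succ, mul_assoc, sq_of_pure hx])
  obtain ⟨P, hP⟩ := (Alt.isPGroup_zpowers_of_pow (h4 ⟨_, hI⟩ rfl)).exists_le_sylow
  replace hP := hP (Subgroup.mem_zpowers _)
  have a1 : ∀ s ∈ (P : Subgroup Γ), (s.1 = 1 ∨ s.1 = -1) ∨ s.1.a = 0 := fun s hs => by
    obtain ⟨k, hk⟩ := P.isPGroup' ⟨s, hs⟩
    exact two_elt h2 hsq k _ (congrArg (fun x => x.1.1) hk)
  have a2 : ∀ s ∈ (P : Subgroup Γ), ∀ t ∈ (P : Subgroup Γ),
      s.1 * t.1 = t.1 * s.1 ∨ s.1 * t.1 = -(t.1 * s.1) := fun s hs t ht => by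
    rcases a1 s hs with (e | e) | e
    · simp [e]
    · simp [e]
    rcases a1 t ht with (e' | e') | e'
    · simp [e']
    · simp [e']
    rcases a1 _ (mul_mem hs ht) with e'' | e''
    · refine .inl (mul_left_cancel (a := s.1) ?_)
      rw [← mul_assoc _ t.1, show s.1 * t.1 = (s * t).1 from rfl]
      rcases e'' with e'' | e'' <;> simp [e'']
    · have : (s.1 * t.1).a = 0 := e''
      right; ext <;> simp [e, e'] at this ⊢
      exacts [by linear_combination 2 * this, by ring, by ring, by ring]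
  refine odd_card_sylow (c := ⟨_, hI⟩ * ⟨_, hI⟩) (Subgroup.mem_center_iff.2 fun g =>
    Subtype.ext (by simp [hII])) P (mul_mem hP hP) (fun n hn s hs => ?_) hr
  suffices n ∈ (P : Subgroup Γ) ∨ n.1 * s.1 = s.1 * n.1 from
    this.elim (fun h => (a2 n h s hs).imp Subtype.ext fun e => Subtype.ext (by simp [hII, e]))
      fun e => .inl (Subtype.ext e)
  have b1 := (a1 _ (mul_mem hP ((Subgroup.mem_normalizer_iff.1 hn _).1 hP))).resolve_right fun e =>
    h n n.2 (by
      change (qI ν * (n.1 * qI ν * n.1⁻¹)).a = 0 at e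
      generalize n.1 * qI ν * n.1⁻¹ = t at e
      simpa using e)
  change qI ν * (n.1 * qI ν * n.1⁻¹) = 1 ∨ qI ν * (n.1 * qI ν * n.1⁻¹) = -1 at b1
  rw [← mul_assoc, mul_inv_eq_iff_eq_mul, mul_inv_eq_iff_eq_mul] at b1
  rcases b1 with b1 | b1
  · have := congrArg QU.a b1
    exact .inl (SL2.mem_sylow_of_mem_normalizer (k := 2) P hn (by
      rw [h4 n (mul_left_cancel₀ h2 (by simp at this; linear_combination -this))]; exact one_mem _))
  have b2 : n.1.c = 0 := mul_left_cancel₀ h2 (by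
    have := congrArg QU.c b1; simp at this; linear_combination this)
  have b3 : n.1.d = 0 := mul_left_cancel₀ h2 (by
    have := congrArg QU.d b1; simp at this; linear_combination this)
  rcases a2 s hs _ hP with e | e
  · obtain ⟨-, c1, c2⟩ := comm_eqs h2 hν e
    simp only [qI_b, qI_c, qI_d, mul_one, mul_zero, eq_comm (a := (0 : F))] at c1 c2
    right; ext <;> simp [b2, b3, c1, c2] <;> ring
  · have c1 : s.1.a = 0 := mul_left_cancel₀ h2 (by
      have := congrArg QU.b e; simp at this; linear_combination this)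
    have c2 : s.1.b = 0 := mul_left_cancel₀ h2 (by
      have := congrArg QU.a e; simp at this; linear_combination -this)
    refine .inl (SL2.mem_sylow_of_mem_normalizer (k := 1) P hn ?_)
    convert mul_mem ((Subgroup.mem_normalizer_iff.1 hn _).1 hs) (inv_mem hs) using 1
    rw [pow_one, sq, mul_assoc, mul_assoc, mul_right_inj, ← mul_assoc, eq_mul_inv_iff_mul_eq]
    ext <;> simp [b2, b3, c1, c2] <;> ring

theorem exists_anticomm [Finite F] (h2 : (2 : F) ≠ 0) (hsq : ¬ IsSquare (2 : F)) (hν : ν ≠ 0)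
    {Γ : Subgroup (QU ν)} (hI : qI ν ∈ Γ) (hφ : ∀ u ∈ Γ, rot ν u ∈ Γ) {w : QU ν} (hw : w ∈ Γ)
    (ha : w.a = 0) (hb : w.b ≠ 0) (hc : w.c ≠ 0) (hd : w.d = 0) :
    ∃ u ∈ Γ, (u * qI ν * u⁻¹).b = 0 := by
  by_contra! h
  let x : Γ := ⟨_, mul_mem hI hw⟩
  obtain ⟨k, hk⟩ | ⟨r, hr, h1, h3⟩ := Nat.eq_two_pow_or_exists_odd_prime_and_dvd (orderOf x)
  · rcases two_elt h2 hsq k x.1 (congrArg Subtype.val (hk ▸ pow_orderOf_eq_one x)) with (e | e) | e
    · exact hc (by simpa [x] using congrArg QU.d e)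
    · exact hc (by simpa [x] using congrArg QU.d e)
    · exact hb (by simpa [x] using e)
  haveI := Fact.mk hr
  have hr2 : r ≠ 2 := by rintro rfl; exact absurd h3 (by decide)
  have a0 : ∀ y : Γ, orderOf y = r → ¬ (y.1 = 1 ∨ y.1 = -1) := fun y hy e => hr2
    ((Nat.prime_dvd_prime_iff_eq hr Nat.prime_two).1 (hy ▸ orderOf_dvd_of_pow_eq_one
      (Subtype.ext (by rcases e with e | e <;> simp [e]))))
  have a1 : ∀ n : ℕ, (x.1 ^ n).b = 0 ∧ (x.1 ^ n).c = 0 := fun n => by
    induction n with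
    | zero => simp
    | succ n ih => simp [pow_succ, ih, x, ha, hd]
  have a2 := orderOf_pow_orderOf_div (orderOf_pos x).ne' h1
  have a3 : (x ^ (orderOf x / r)).1.b = 0 ∧ (x ^ (orderOf x / r)).1.c = 0 := a1 _
  generalize x ^ (orderOf x / r) = y at a2 a3
  have a4 : y.1.d ≠ 0 := fun e => a0 y a2 (eq_or_of_im a3.1 a3.2 e)
  let φ : Γ →* Γ := ((rot ν).toMonoidHom.comp Γ.subtype).codRestrict Γ fun u => hφ u u.2
  obtain ⟨R, hR⟩ := exists_sylow_fixed (odd_card_sylow' h2 hsq hν hI h hr2)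
    (MulEquiv.ofBijective φ (Finite.injective_iff_bijective.1 fun u v e =>
      Subtype.ext ((rot ν).injective (congrArg Subtype.val e)))) (k := 2) (by
        ext u <;> simp [pow_succ, φ])
  obtain ⟨u, -, hu⟩ := Alt.exists_conj_mem_sylow R (D := ⊤) le_top (x := y) trivial (k := 1)
    (by rw [pow_one, ← a2, pow_orderOf_eq_one])
  obtain ⟨z, hz, b1, b2⟩ := SL2.exists_central_of_isPGroup R.isPGroup' fun e => by
    rw [e, Subgroup.mem_bot, conj_eq_one_iff] at hu
    exact a4 (by simp [hu])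
  obtain ⟨c1, c2, c3⟩ := comm_eqs h2 hν (congrArg Subtype.val (b2 _ (hR z hz)))
  obtain ⟨d1, d2, d3⟩ := comm_eqs h2 hν (congrArg Subtype.val (b2 _ hu))
  change z.1.d * _ = -z.1.c * _ at c1
  change -z.1.c * _ = z.1.b * _ at c2
  change z.1.b * _ = z.1.d * _ at c3
  have d4 : (u * y * u⁻¹).1.a = y.1.a := conj_a _ _
  have d5 : y = u⁻¹ * (u * y * u⁻¹) * u := by group
  generalize u * y * u⁻¹ = v at *
  have b3 : z.1.b ≠ 0 := fun e => by
    have f1 : ∀ t, z.1.c * t = 0 → z.1.d * t = 0 → t = 0 := fun t e1 e2 => by_contra fun e3 =>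
      a0 z b1 (eq_or_of_im e ((mul_eq_zero.1 e1).resolve_right e3)
        ((mul_eq_zero.1 e2).resolve_right e3))
    have f2 : v.1.b = 0 := f1 _ (by linear_combination d3 + v.1.c * e)
      (by linear_combination -d2 + v.1.d * e)
    have f3 : v.1.c ^ 2 + v.1.d ^ 2 = 0 := f1 _
      (f1 _ (by linear_combination v.1.c ^ 2 * c1 - (v.1.c * z.1.d + v.1.d * z.1.c) * d1)
        (by linear_combination v.1.c * v.1.d * c1 + (z.1.c * v.1.c - z.1.d * v.1.d) * d1))
      (f1 _ (by linear_combination v.1.c * v.1.d * c1 + (z.1.c * v.1.c - z.1.d * v.1.d) * d1)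
        (by linear_combination v.1.d ^ 2 * c1 + (v.1.c * z.1.d + v.1.d * z.1.c) * d1))
    have f4 := v.1.h
    have f5 := y.1.h
    rw [f2, f3, d4] at f4
    rw [a3.1, a3.2] at f5
    exact mul_ne_zero hν (pow_ne_zero 2 a4) (by linear_combination f5 - f4)
  have b4 : z.1.c = 0 := mul_left_cancel₀ (mul_ne_zero h2 b3) (by linear_combination c3 - c2)
  have b5 : z.1.d = 0 := mul_left_cancel₀ (mul_ne_zero h2 b3) (by linear_combination -c3 - c2)
  have b6 : v.1 * qI ν = qI ν * v.1 := by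
    have e1 : v.1.c = 0 := mul_left_cancel₀ b3 (by linear_combination -d3 + v.1.b * b4)
    have e2 : v.1.d = 0 := mul_left_cancel₀ b3 (by linear_combination d2 + v.1.b * b5)
    ext <;> simp [e1, e2]
  have b7 : y.1 * (u.1⁻¹ * qI ν * u.1⁻¹⁻¹) = (u.1⁻¹ * qI ν * u.1⁻¹⁻¹) * y.1 := by
    rw [d5]; simp [mul_assoc, b6, ← mul_assoc v.1]
  exact h _ (inv_mem u.2) (mul_left_cancel₀ a4 (by
    rw [(comm_eqs h2 hν b7).2.1, a3.1, zero_mul, mul_zero]))

end QU

end Cfsg.Agent.Pron
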